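import Cfsg.Agent.H52.AvgFix.Group
import Cfsg.Agent.S0854
import Cfsg.Agent.S0887
import Cfsg.Agent.H39.FullyRamified
import Cfsg.Agent.H43.Constituents

/-!
Primitive characters of solvable groups: degree against centraliser indices, along a chief series.
-/

set_option autoImplicit false
set_option linter.unusedSectionVars false

namespace Cfsg.Agent.H52.AvgFix

open scoped ComplexConjugate

/-- Summing over a group a function of the cosets. -/
theorem sum_quotient_eq {G : Type*} [Group G] [Fintype G] (M : Subgroup G) [M.Normal]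
    [Fintype (G ⧸ M)] (F : G ⧸ M → ℕ) :
    ∑ g : G, F (g : G ⧸ M) = Nat.card M * ∑ q : G ⧸ M, F q := by
  classical
  let e := (Subgroup.groupEquivQuotientProdSubgroup (s := M))
  have hfst : ∀ g, (e g).1 = (g : G ⧸ M) := fun g => rfl
  calc ∑ g : G, F (g : G ⧸ M) = ∑ x : (G ⧸ M) × M, F x.1 :=
        Fintype.sum_equiv e _ _ fun g => congrArg F (hfst g).symm
    _ = _ := by
        rw [Fintype.sum_prod_type]
        simp [Finset.mul_sum, Nat.card_eq_fintype_card]

variable {G : Type*} [Group G] [Fintype G]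

/-- A subgroup against a normal subgroup and its image. -/
theorem card_eq_inf_mul_map (M H : Subgroup G) [M.Normal] :
    Nat.card H = Nat.card ↥(M ⊓ H) * Nat.card ↥(H.map (QuotientGroup.mk' M)) := by
  have h := Subgroup.card_mul_index ((QuotientGroup.mk' M).comp H.subtype).ker
  rw [Subgroup.index_ker, MonoidHom.range_comp, Subgroup.range_subtype] at h
  rw [← h]
  congr 1
  refine Nat.card_congr
    { toFun := fun x => ⟨(x : H), (QuotientGroup.eq_one_iff _).1 x.2, (x : H).2⟩
      invFun := fun y => ⟨⟨(y : G), y.2.2⟩, (QuotientGroup.eq_one_iff _).2 y.2.1⟩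
      left_inv := fun x => rfl
      right_inv := fun y => rfl }

/-- The data of a homogeneous restriction. -/
def IsData (χ : G → ℂ) (N : Subgroup G) [Fintype N] (θ : N → ℂ) (a d : ℕ) : Prop :=
  Cfsg.IsIrrCharacter N θ ∧ 0 < a ∧ θ 1 = d ∧ ∀ n : N, χ n = (a : ℂ) * θ n

/-- A primitive character restricts homogeneously. -/
theorem exists_data (χ : Cfsg.IrrCharacter G)
    (hprim : ¬ ∃ (H : Subgroup G), H ≠ ⊤ ∧ ∃ θ : ↥H → ℂ, Cfsg.IsCharacter ↥H θ ∧
      Cfsg.indFun H θ = (χ : G → ℂ))
    (N : Subgroup G) [N.Normal] [Fintype N] :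
    ∃ (θ : N → ℂ) (a d : ℕ), IsData χ.1 N θ a d := by
  classical
  obtain ⟨τ, hτ⟩ := H43.exists_restrMult_ne_zero N χ
  have hcon : Cfsg.classInner (fun n : N => χ.1 n) τ.1 ≠ 0 := by
    rw [H43.classInner_eq_mult (H43.isCharacter_restr N χ) τ]
    exact Nat.cast_ne_zero.2 hτ
  obtain ⟨b, σ, hσ, hτe⟩ := τ.2
  rw [← hτe] at hcon
  have hirr : Cfsg.IsIrrCharacter N σ.character := ⟨b, σ, hσ, rfl⟩
  haveI := Fintype.ofFinite (H39.inertia σ)
  obtain ⟨ψ, hψ, hψind, -⟩ := S0854.result N σ.character hirr (H39.inertia σ)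
    (fun g => H39.mem_inertia) (H39.le_inertia σ) χ.1 χ.2 hcon
  have htop : H39.inertia σ = ⊤ := by
    by_contra hne
    exact hprim ⟨_, hne, ψ, H26.isCharacter_of_irr hψ, hψind⟩
  have hinv : ∀ (g : G) (n : N), σ.character (H39.conjN g n) = σ.character n := fun g =>
    H39.mem_inertia.1 (htop ▸ Subgroup.mem_top g)
  obtain ⟨e, he0, -, he⟩ := H39.restrict_eq_smul_of_invariant χ.2 hirr hinv hcon
  obtain ⟨d, hd⟩ := H26.exists_nat_char_one (H26.isCharacter_of_irr hirr)
  exact ⟨σ.character, e, d, hirr, Nat.pos_of_ne_zero he0, hd, fun n => by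
    simpa using congrFun he n⟩

theorem data_deg_pos {χ : G → ℂ} {N : Subgroup G} [Fintype N] {θ : N → ℂ} {a d : ℕ}
    (h : IsData χ N θ a d) : 0 < d := by
  refine Nat.pos_of_ne_zero fun h0 => H26.irr_one_ne_zero (⟨θ, h.1⟩ : Cfsg.IrrCharacter N) ?_
  show θ 1 = 0
  rw [h.2.2.1, h0, Nat.cast_zero]

/-- The sum of the squared absolute values over the subgroup. -/
theorem sum_normSq_eq {χ : G → ℂ} {N : Subgroup G} [Fintype N] {θ : N → ℂ} {a d : ℕ}
    (h : IsData χ N θ a d) :
    ∑ n : N, Complex.normSq (χ n) = (a : ℝ) ^ 2 * Nat.card N := by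
  have h1 := H57.irr_inner_self h.1
  have hcard : (Nat.card N : ℂ) ≠ 0 := Nat.cast_ne_zero.2 Nat.card_pos.ne'
  rw [Cfsg.classInner, inv_mul_eq_iff_eq_mul₀ hcard, mul_one] at h1
  apply Complex.ofReal_injective
  rw [Complex.ofReal_sum, Complex.ofReal_mul, Complex.ofReal_pow, Complex.ofReal_natCast,
    Complex.ofReal_natCast, ← h1, Finset.mul_sum]
  refine Finset.sum_congr rfl fun n _ => ?_
  rw [h.2.2.2 n, Complex.normSq_eq_conj_mul_self, map_mul, Complex.conj_natCast]
  ring

/-- Degrees along two normal subgroups. -/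
theorem data_step {χ : G → ℂ} {M N : Subgroup G} [M.Normal] [Fintype M] [Fintype N] (hMN : M ≤ N)
    {θ₀ : M → ℂ} {θ : N → ℂ} {a₀ d₀ a d : ℕ} (h₀ : IsData χ M θ₀ a₀ d₀) (h : IsData χ N θ a d) :
    ∃ e : ℕ, d = d₀ * e ∧ e ∣ M.relIndex N ∧ e ^ 2 * Nat.card M ≤ Nat.card N := by
  classical
  haveI := Fintype.ofFinite (M.subgroupOf N)
  have ha : (a : ℂ) ≠ 0 := Nat.cast_ne_zero.2 h.2.1.ne'
  have hθ : ∀ m : M, θ ⟨m, hMN m.2⟩ = (a₀ : ℂ) / a * θ₀ m := fun m => by
    rw [div_mul_eq_mul_div, eq_div_iff ha, ← h₀.2.2.2 m, mul_comm]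
    exact (h.2.2.2 ⟨m, hMN m.2⟩).symm
  have hres : (fun x : M.subgroupOf N => θ x) =
      ((a₀ : ℂ) / a) • H56.resT M N θ₀ := funext fun x => hθ ⟨_, Subgroup.mem_subgroupOf.1 x.2⟩
  have hirr := H56.isIrrCharacter_resT M N h₀.1 hMN
  have hcon : Cfsg.classInner (fun x : M.subgroupOf N => θ x) (H56.resT M N θ₀) ≠ 0 := by
    rw [hres, H26.classInner_smul_left, H57.irr_inner_self hirr, mul_one]
    exact div_ne_zero (Nat.cast_ne_zero.2 h₀.2.1.ne') ha
  have hd₀' : H56.resT M N θ₀ 1 = (d₀ : ℂ) := by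
    rw [← h₀.2.2.1]; rfl
  obtain ⟨hdvd, hidx⟩ := S0887.result (M.subgroupOf N) θ h.1 (H56.resT M N θ₀) hirr hcon d d₀
    h.2.2.1 hd₀'
  obtain ⟨e, rfl⟩ := hdvd
  have hd0pos : 0 < d₀ := data_deg_pos h₀
  rw [Nat.mul_div_cancel_left _ hd0pos] at hidx
  have hae : a₀ = a * e := by
    have e1 := h₀.2.2.2 1
    have e2 := h.2.2.2 1
    rw [h₀.2.2.1] at e1
    rw [h.2.2.1] at e2
    have h' : (a : ℂ) * ((d₀ * e : ℕ) : ℂ) = (a₀ : ℂ) * (d₀ : ℂ) := by
      rw [← e1, ← e2]; simp
    have h'' : a * (d₀ * e) = a₀ * d₀ := by exact_mod_cast h'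
    exact Nat.eq_of_mul_eq_mul_left hd0pos (by rw [mul_comm d₀ a₀, ← h'']; ring)
  refine ⟨e, rfl, hidx, ?_⟩
  have hsub : ∑ m : M, Complex.normSq (χ m) ≤ ∑ n : N, Complex.normSq (χ n) := by
    calc ∑ m : M, Complex.normSq (χ m)
        = ∑ n ∈ Finset.univ.map ⟨fun m : M => (⟨m, hMN m.2⟩ : N),
            fun x y hxy => Subtype.ext (congrArg (fun n : N => (n : G)) hxy)⟩,
            Complex.normSq (χ n) := by rw [Finset.sum_map]; rfl
      _ ≤ _ := Finset.sum_le_sum_of_subset_of_nonneg (Finset.subset_univ _)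
            fun _ _ _ => Complex.normSq_nonneg _
  rw [sum_normSq_eq h₀, sum_normSq_eq h, hae] at hsub
  push_cast at hsub
  have ha2 : (0 : ℝ) < (a : ℝ) ^ 2 := pow_pos (Nat.cast_pos.2 h.2.1) 2
  have : (e : ℝ) ^ 2 * Nat.card M ≤ Nat.card N := by nlinarith [hsub, ha2]
  exact_mod_cast this

/-- The prime powers `j` with `j ^ 2 ≤ p ^ n`. -/
theorem factorization_le_half {p e n : ℕ} (hp : p.Prime) (he : e ∣ p ^ n) (hle : e ^ 2 ≤ p ^ n) :
    2 * e.factorization p ≤ n := by
  obtain ⟨k, -, rfl⟩ := (Nat.dvd_prime_pow hp).1 he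
  rw [← pow_mul] at hle
  rw [hp.factorization_pow, Finsupp.single_eq_same]
  have := (Nat.pow_le_pow_iff_right hp.one_lt).1 hle
  omega

/-- **The centraliser bound along a chief series.** -/
theorem exists_bound [Group.IsSolvable G] (p : ℕ) [hp : Fact p.Prime] (χ : Cfsg.IrrCharacter G)
    (hprim : ¬ ∃ (H : Subgroup G), H ≠ ⊤ ∧ ∃ θ : ↥H → ℂ, Cfsg.IsCharacter ↥H θ ∧
      Cfsg.indFun H θ = (χ : G → ℂ))
    (R : Subgroup G)
    (hR : ∀ (M N : Subgroup G) [M.Normal], N.Normal → M < N →
      (∀ K : Subgroup G, K.Normal → M ≤ K → K ≤ N → K = M ∨ K = N) →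
      IsPGroup p (N.map (QuotientGroup.mk' M)) →
      R.map (QuotientGroup.mk' M) ≤ Subgroup.centralizer (N.map (QuotientGroup.mk' M) : Set (G ⧸ M))) :
    ∀ (N : Subgroup G) [N.Normal] [Fintype N] (θ : N → ℂ) (a d : ℕ), IsData χ.1 N θ a d →
      ∃ Φ : G → ℕ,
        (∀ g, Φ g + (Nat.card ↥(N ⊓ Subgroup.centralizer ({g} : Set G))).factorization p ≤
          (Nat.card N).factorization p) ∧
        Nat.card G * d.factorization p ≤ ∑ g, Φ g ∧ ∀ g, ∀ t ∈ R, Φ (g * t) = Φ g := by
  classical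
  intro N
  induction hn : Nat.card N using Nat.strong_induction_on generalizing N with
  | _ n ih =>
    subst hn
    intro _ _ θ a d hdata
    rcases eq_or_ne N ⊥ with rfl | hN0
    · refine ⟨fun _ => 0, fun g => ?_, ?_, fun _ _ _ => rfl⟩
      · rw [bot_inf_eq, zero_add]
      · have hd : d = 1 := by
          have h := H57.irr_inner_self hdata.1
          rw [Cfsg.classInner, Nat.card_unique, Fintype.sum_unique,
            Subsingleton.elim (default : (⊥ : Subgroup G)) 1, hdata.2.2.1, Complex.conj_natCast] at h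
          norm_num at h
          exact Nat.eq_one_of_mul_eq_one_right (by exact_mod_cast h : d * d = 1)
        simp [hd]
    -- a chief factor below `N`
    obtain ⟨M, ⟨hMn, hMN⟩, hMmax⟩ := Set.Finite.exists_maximal
      (Set.toFinite {K : Subgroup G | K.Normal ∧ K < N}) ⟨⊥, inferInstance, bot_lt_iff_ne_bot.2 hN0⟩
    haveI : M.Normal := hMn
    have hchief : ∀ K : Subgroup G, K.Normal → M ≤ K → K ≤ N → K = M ∨ K = N := by
      intro K hK h1 h2
      rcases h2.lt_or_eq with h | h
      · exact Or.inl (le_antisymm (hMmax ⟨hK, h⟩ h1) h1)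
      · exact Or.inr h
    obtain ⟨θ₀, a₀, d₀, hdata₀⟩ := exists_data χ hprim M
    have hcardlt : Nat.card M < Nat.card N := Set.Finite.card_lt_card (Set.toFinite _) hMN
    obtain ⟨Φ₀, hΦ1, hΦ2, hΦ3⟩ := ih _ hcardlt M rfl θ₀ a₀ d₀ hdata₀
    obtain ⟨e, rfl, hedvd, hesq⟩ := data_step hMN.le hdata₀ hdata
    set V := N.map (QuotientGroup.mk' M) with hVdef
    haveI : V.Normal := Subgroup.Normal.map ‹_› _ (QuotientGroup.mk'_surjective M)
    haveI : Group.IsSolvable (G ⧸ M) :=
      Group.isSolvable_of_surjective (QuotientGroup.mk'_surjective M)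
    have hinfMN : M ⊓ N = M := inf_eq_left.2 hMN.le
    have hcardN : Nat.card N = Nat.card M * Nat.card V := by
      rw [card_eq_inf_mul_map M N, hinfMN]
    have hV0 : V ≠ ⊥ := fun h => by
      rw [hcardN, h, Subgroup.card_bot, mul_one] at hcardlt
      exact lt_irrefl _ hcardlt
    have hVmin : ∀ K : Subgroup (G ⧸ M), K.Normal → K ≤ V → K = ⊥ ∨ K = V := by
      intro K hK hKV
      have hsurj := QuotientGroup.mk'_surjective M
      have h1 : M ≤ K.comap (QuotientGroup.mk' M) := fun x hx => by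
        rw [Subgroup.mem_comap, QuotientGroup.mk'_apply, (QuotientGroup.eq_one_iff x).2 hx]
        exact K.one_mem
      have h2 : K.comap (QuotientGroup.mk' M) ≤ N := by
        refine (Subgroup.comap_mono hKV).trans ?_
        rw [hVdef, Subgroup.comap_map_eq, QuotientGroup.ker_mk', sup_eq_left.2 hMN.le]
      have hmap := Subgroup.map_comap_eq_self_of_surjective hsurj K
      rcases hchief _ (hK.comap _) h1 h2 with h | h
      · exact Or.inl (by rw [← hmap, h, QuotientGroup.map_mk'_self])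
      · exact Or.inr (by rw [← hmap, h])
    have hVsolv : Group.IsSolvable V := inferInstance
    obtain ⟨hVc, q, hq, hVq, hVexp⟩ := H19.minimalNormal_elementary V hVsolv hV0 hVmin
    have hrel : M.relIndex N = Nat.card V := by
      have h := Subgroup.card_mul_index (M.subgroupOf N)
      rw [Nat.card_congr (Subgroup.subgroupOfEquivOfLe hMN.le).toEquiv, hcardN] at h
      exact Nat.eq_of_mul_eq_mul_left Nat.card_pos h
    rw [hrel] at hedvd
    have he0 : e ≠ 0 := fun h => Nat.card_pos.ne' (Nat.eq_zero_of_zero_dvd (h ▸ hedvd))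
    have hd0 : d₀ ≠ 0 := (data_deg_pos hdata₀).ne'
    have hvd : (d₀ * e).factorization p = d₀.factorization p + e.factorization p := by
      rw [Nat.factorization_mul hd0 he0, Finsupp.add_apply]
    have hvN : (Nat.card N).factorization p =
        (Nat.card M).factorization p + (Nat.card V).factorization p := by
      rw [hcardN, Nat.factorization_mul Nat.card_pos.ne' Nat.card_pos.ne', Finsupp.add_apply]
    -- the centraliser in `N`
    have hvC : ∀ g : G, (Nat.card ↥(N ⊓ Subgroup.centralizer ({g} : Set G))).factorization p ≤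
        (Nat.card ↥(M ⊓ Subgroup.centralizer ({g} : Set G))).factorization p +
          (Nat.card ↥(V ⊓ Subgroup.centralizer ({(g : G ⧸ M)} : Set (G ⧸ M)))).factorization p := by
      intro g
      rw [card_eq_inf_mul_map M (N ⊓ Subgroup.centralizer ({g} : Set G)), ← inf_assoc, hinfMN,
        Nat.factorization_mul Nat.card_pos.ne' Nat.card_pos.ne', Finsupp.add_apply]
      refine Nat.add_le_add_left ?_ _
      refine (Nat.factorization_le_iff_dvd Nat.card_pos.ne' Nat.card_pos.ne').2 ?_ p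
      refine Subgroup.card_dvd_of_le ?_
      rintro _ ⟨x, hx, rfl⟩
      refine ⟨⟨x, hx.1, rfl⟩, Subgroup.mem_centralizer_singleton_iff.2 ?_⟩
      show (x : G ⧸ M) * (g : G ⧸ M) = (g : G ⧸ M) * (x : G ⧸ M)
      rw [← QuotientGroup.mk_mul, ← QuotientGroup.mk_mul,
        Subgroup.mem_centralizer_singleton_iff.1 hx.2]
    set n := (Nat.card V).factorization p with hn
    set f : G ⧸ M → ℕ := fun x =>
      (Nat.card ↥(V ⊓ Subgroup.centralizer ({x} : Set (G ⧸ M)))).factorization p with hf
    have hfn : ∀ x, f x ≤ n := fun x =>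
      (Nat.factorization_le_iff_dvd Nat.card_pos.ne' Nat.card_pos.ne').2
        (Subgroup.card_dvd_of_le inf_le_left) p
    by_cases hqp : q = p
    · subst hqp
      refine ⟨fun g => Φ₀ g + (n - f (g : G ⧸ M)), fun g => ?_, ?_, fun g t ht => ?_⟩
      · have h1 := hΦ1 g
        have h2 := hvC g
        have h3 := hfn (g : G ⧸ M)
        simp only [hf, hn] at h3 ⊢
        omega
      · rw [Finset.sum_add_distrib, hvd, mul_add]
        refine Nat.add_le_add hΦ2 ?_
        haveI := Fintype.ofFinite (G ⧸ M)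
        rw [sum_quotient_eq M (fun x => n - f x),
          Subgroup.card_eq_card_quotient_mul_card_subgroup M, mul_comm (Nat.card (G ⧸ M)),
          mul_assoc]
        refine Nat.mul_le_mul_left _ ?_
        obtain ⟨k, hk⟩ := IsPGroup.iff_card.1 hVq
        have hnk : n = k := by rw [hn, hk, hq.factorization_pow, Finsupp.single_eq_same]
        have hesq' : e ^ 2 ≤ q ^ k := by
          rw [← hk]
          refine Nat.le_of_mul_le_mul_right ?_ (Nat.card_pos (α := M))
          rw [mul_comm (Nat.card V)]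
          exact hcardN ▸ hesq
        by_cases hc : V ≤ Subgroup.center (G ⧸ M)
        · -- a central chief factor has prime order
          obtain ⟨v, hv⟩ := exists_prime_orderOf_dvd_card' (G := V) q (by
            rw [hk]
            refine dvd_pow_self q fun h0 => hV0 (Subgroup.card_eq_one.1 ?_)
            rw [hk, h0, pow_zero])
          have hn' : (Subgroup.zpowers (v : G ⧸ M)).Normal := ⟨fun x hx g => by
            rwa [Subgroup.mem_center_iff.1 (hc (Subgroup.zpowers_le.2 v.2 hx)) g, mul_inv_cancel_right]⟩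
          have hord : orderOf (v : G ⧸ M) = q := by rw [Subgroup.orderOf_coe, hv]
          rcases hVmin _ hn' (Subgroup.zpowers_le.2 v.2) with h | h
          · rw [Subgroup.zpowers_eq_bot] at h
            rw [h, orderOf_one] at hord
            exact absurd hord.symm hq.ne_one
          · have hk1 : k = 1 := by
              have := congrArg (fun K : Subgroup (G ⧸ M) => Nat.card K) h
              simp only [Nat.card_zpowers, hord, hk] at this
              exact (Nat.pow_eq_self_iff hq.one_lt).1 this.symm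
            have := factorization_le_half hq (hk ▸ hedvd) hesq'
            have he1 : e.factorization q = 0 := by omega
            simp [he1]
        · have havg := two_mul_sum_centralizer_le V hVc hVexp hV0 hVmin hc
          have he := factorization_le_half hq (hk ▸ hedvd) hesq'
          rw [← hnk] at he
          have hsum : ∑ x : G ⧸ M, (n - f x) + ∑ x : G ⧸ M, f x = Nat.card (G ⧸ M) * n := by
            rw [← Finset.sum_add_distrib, Finset.sum_congr rfl fun x _ => Nat.sub_add_cancel (hfn x),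
              Finset.sum_const, Finset.card_univ, smul_eq_mul, Nat.card_eq_fintype_card]
          have h2 : Nat.card (G ⧸ M) * (2 * e.factorization q) ≤ Nat.card (G ⧸ M) * n :=
            Nat.mul_le_mul_left _ he
          simp only [hf, hn] at hsum h2 havg ⊢
          rw [mul_left_comm] at h2
          omega
      · have hcent := hR M N ‹_› hMN hchief hVq
        have hsame : V ⊓ Subgroup.centralizer ({((g * t : G) : G ⧸ M)} : Set (G ⧸ M)) =
            V ⊓ Subgroup.centralizer ({(g : G ⧸ M)} : Set (G ⧸ M)) := by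
          ext x
          simp only [Subgroup.mem_inf, Subgroup.mem_centralizer_singleton_iff]
          refine and_congr_right fun hx => ?_
          have htx : x * (t : G ⧸ M) = (t : G ⧸ M) * x :=
            Subgroup.mem_centralizer_iff.1 (hcent ⟨t, ht, rfl⟩) x hx
          rw [QuotientGroup.mk_mul, ← mul_assoc, mul_assoc _ (t : G ⧸ M) x, ← htx, ← mul_assoc]
          exact mul_left_inj _
        simp only [hf, hΦ3 g t ht, hsame]
    · refine ⟨Φ₀, fun g => ?_, ?_, hΦ3⟩
      · have h1 := hΦ1 g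
        have h2 := hvC g
        have h3 := hfn (g : G ⧸ M)
        simp only [hf, hn] at h3
        omega
      · obtain ⟨k, hk⟩ := (haveI := Fact.mk hq; IsPGroup.iff_card.1 hVq)
        obtain ⟨j, -, hj⟩ := (Nat.dvd_prime_pow hq).1 (hk ▸ hedvd)
        have : e.factorization p = 0 := by
          rw [hj, hq.factorization_pow, Finsupp.single_eq_of_ne (Ne.symm hqp)]
        rw [hvd, this, add_zero]
        exact hΦ2

/-- The bound for the whole group. -/
theorem exists_bound_top [Group.IsSolvable G] (p : ℕ) [hp : Fact p.Prime] (χ : Cfsg.IrrCharacter G)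
    (hprim : ¬ ∃ (H : Subgroup G), H ≠ ⊤ ∧ ∃ θ : ↥H → ℂ, Cfsg.IsCharacter ↥H θ ∧
      Cfsg.indFun H θ = (χ : G → ℂ))
    (R : Subgroup G)
    (hR : ∀ (M N : Subgroup G) [M.Normal], N.Normal → M < N →
      (∀ K : Subgroup G, K.Normal → M ≤ K → K ≤ N → K = M ∨ K = N) →
      IsPGroup p (N.map (QuotientGroup.mk' M)) →
      R.map (QuotientGroup.mk' M) ≤ Subgroup.centralizer (N.map (QuotientGroup.mk' M) : Set (G ⧸ M))) :
    ∃ Φ : G → ℕ, (∀ g, Φ g ≤ ((Subgroup.centralizer ({g} : Set G)).index).factorization p) ∧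
      (∃ g, (Cfsg.charDegree (χ : G → ℂ)).factorization p ≤ Φ g) ∧
      ∀ g, ∀ t ∈ R, Φ (g * t) = Φ g := by
  classical
  obtain ⟨θ, a, d, hdata⟩ := exists_data χ hprim (⊤ : Subgroup G)
  obtain ⟨Φ, h1, h2, h3⟩ := exists_bound p χ hprim R hR ⊤ θ a d hdata
  obtain ⟨c, hc⟩ := H26.exists_nat_char_one (H26.irr_isCharacter χ)
  have hdeg : Cfsg.charDegree (χ : G → ℂ) = c := by
    simp [Cfsg.charDegree, hc]
  -- the restriction to the whole group is irreducible
  have hsq := sum_normSq_eq hdata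
  have hwhole : ∑ n : (⊤ : Subgroup G), Complex.normSq (χ.1 n) = Nat.card G := by
    have h := H57.irr_inner_self χ.2
    have hcard : (Nat.card G : ℂ) ≠ 0 := Nat.cast_ne_zero.2 Nat.card_pos.ne'
    rw [Cfsg.classInner, inv_mul_eq_iff_eq_mul₀ hcard, mul_one] at h
    apply Complex.ofReal_injective
    rw [Complex.ofReal_sum, Complex.ofReal_natCast, ← h]
    refine Fintype.sum_equiv Subgroup.topEquiv.toEquiv _ _ fun n => ?_
    rw [Complex.normSq_eq_conj_mul_self, mul_comm]
    rfl
  rw [hwhole, Subgroup.card_top] at hsq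
  have ha1 : a = 1 := by
    have h : (Nat.card G : ℝ) * 1 = (Nat.card G : ℝ) * (a : ℝ) ^ 2 := by rw [mul_one]; linarith
    have h2 : a ^ 2 = 1 := by
      exact_mod_cast (mul_left_cancel₀ (Nat.cast_ne_zero.2 Nat.card_pos.ne') h).symm
    exact (pow_eq_one_iff_left (a := a) (by norm_num)).1 h2
  have hdc : d = c := by
    have h := hdata.2.2.2 1
    rw [hdata.2.2.1, ha1, Nat.cast_one, one_mul, OneMemClass.coe_one, hc] at h
    exact_mod_cast h.symm
  refine ⟨Φ, fun g => ?_, ?_, h3⟩
  · have h := h1 g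
    rw [top_inf_eq, Subgroup.card_top,
      ← Subgroup.card_mul_index (Subgroup.centralizer ({g} : Set G)),
      Nat.factorization_mul Nat.card_pos.ne' Subgroup.index_ne_zero_of_finite,
      Finsupp.add_apply] at h
    omega
  · rw [hdeg, ← hdc]
    obtain ⟨g, -, hg⟩ := Finset.exists_le_of_sum_le (s := (Finset.univ : Finset G))
      (f := fun _ => d.factorization p) (g := Φ) Finset.univ_nonempty (by
        rw [Finset.sum_const, Finset.card_univ, smul_eq_mul, ← Nat.card_eq_fintype_card]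
        exact h2)
    exact ⟨g, hg⟩

/-- **Some class size carries the `p`-part of a primitive degree.** -/
theorem exists_class [Group.IsSolvable G] (p : ℕ) [Fact p.Prime] (χ : Cfsg.IrrCharacter G)
    (hprim : ¬ ∃ (H : Subgroup G), H ≠ ⊤ ∧ ∃ θ : ↥H → ℂ, Cfsg.IsCharacter ↥H θ ∧
      Cfsg.indFun H θ = (χ : G → ℂ)) :
    ∃ g : G, (Cfsg.charDegree (χ : G → ℂ)).factorization p ≤
      ((Subgroup.centralizer ({g} : Set G)).index).factorization p := by
  obtain ⟨Φ, h1, ⟨g, hg⟩, -⟩ := exists_bound_top p χ hprim ⊥ (fun M N _ _ _ _ _ => by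
    rw [Subgroup.map_bot]; exact bot_le)
  exact ⟨g, hg.trans (h1 g)⟩

end Cfsg.Agent.H52.AvgFix
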