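import Cfsg.Agent.H52.AvgFix.Linear
import Cfsg.Agent.H19.MinimalNormal

/-!
Minimal normal subgroups of finite solvable groups: on average an element centralises at most
half of a non-central one.
-/

set_option autoImplicit false
set_option linter.unusedSectionVars false

namespace Cfsg.Agent.H52.AvgFix

open Module

variable {X : Type*} [Group X] [Finite X] {p : ℕ} [hp : Fact p.Prime] (V : Subgroup X) [V.Normal]

/-- Conjugation on a normal subgroup. -/
abbrev conjHom : X →* MulAut V := MulAut.conjNormal

theorem mem_ker_conjHom {x : X} :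
    x ∈ (conjHom V).ker ↔ x ∈ Subgroup.centralizer (V : Set X) := by
  rw [MonoidHom.mem_ker, Subgroup.mem_centralizer_iff]
  constructor
  · intro h v hv
    have := congrArg (fun e : MulAut V => ((e ⟨v, hv⟩ : V) : X)) h
    simp at this
    calc v * x = (x * v * x⁻¹) * x := by rw [this]
      _ = x * v := by rw [inv_mul_cancel_right]
  · intro h
    refine MulEquiv.ext fun v => Subtype.ext ?_
    simp [← h v v.2]

/-- A normal subgroup acting on a minimal normal `p`-subgroup as a `p`-group centralises it. -/
theorem le_centralizer_of_pGroup_action (hV : IsPGroup p V) (hV0 : V ≠ ⊥)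
    (hmin : ∀ K : Subgroup X, K.Normal → K ≤ V → K = ⊥ ∨ K = V) (R : Subgroup X) [R.Normal]
    (hR : ∀ t ∈ R, ∃ j : ℕ, t ^ p ^ j ∈ Subgroup.centralizer (V : Set X)) :
    R ≤ Subgroup.centralizer (V : Set X) := by
  classical
  have hP : IsPGroup p (R.map (conjHom V)) := by
    rintro ⟨_, t, ht, rfl⟩
    obtain ⟨j, hj⟩ := hR t ht
    exact ⟨j, Subtype.ext (by
      rw [Subgroup.coe_pow, ← map_pow, OneMemClass.coe_one]
      exact (mem_ker_conjHom V).2 hj)⟩
  have hpV : p ∣ Nat.card V := by
    obtain ⟨j, hj⟩ := IsPGroup.iff_card.1 hV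
    rcases j with _ | j
    · exact absurd (Subgroup.card_eq_one.1 (hj.trans (pow_zero p))) hV0
    · rw [hj]; exact dvd_pow_self p j.succ_ne_zero
  have hfix1 : (1 : V) ∈ MulAction.fixedPoints (R.map (conjHom V)) V := fun a =>
    map_one (a : MulAut V)
  obtain ⟨v, hv, hv1⟩ := hP.exists_fixed_point_of_prime_dvd_card_of_fixed_point V hpV hfix1
  have hvC : (v : X) ∈ Subgroup.centralizer (R : Set X) := by
    rw [Subgroup.mem_centralizer_iff]
    intro t ht
    have h : conjHom V t v = v := hv ⟨conjHom V t, t, ht, rfl⟩
    have h' := congrArg Subtype.val h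
    simp at h'
    calc t * (v : X) = (t * v * t⁻¹) * t := by rw [inv_mul_cancel_right]
      _ = v * t := by rw [h']
  have hn : (V ⊓ Subgroup.centralizer (R : Set X)).Normal := inferInstance
  rcases hmin _ hn inf_le_left with h | h
  · have hm : (v : X) ∈ V ⊓ Subgroup.centralizer (R : Set X) := ⟨v.2, hvC⟩
    rw [h, Subgroup.mem_bot, OneMemClass.coe_eq_one] at hm
    exact absurd hm.symm hv1
  · have hle : V ≤ Subgroup.centralizer (R : Set X) := h.ge.trans inf_le_right
    exact Subgroup.le_centralizer_iff.1 hle

/-- **Average centraliser in a minimal normal subgroup.** -/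
theorem two_mul_sum_centralizer_le [Fintype X] [Group.IsSolvable X] (hcomm : IsMulCommutative V)
    (hexp : ∀ v ∈ V, v ^ p = 1) (hV0 : V ≠ ⊥)
    (hmin : ∀ K : Subgroup X, K.Normal → K ≤ V → K = ⊥ ∨ K = V)
    (hnc : ¬ V ≤ Subgroup.center X) :
    2 * ∑ x : X, (Nat.card ↥(V ⊓ Subgroup.centralizer ({x} : Set X))).factorization p ≤
      Nat.card X * (Nat.card V).factorization p := by
  classical
  have hVp : IsPGroup p V := fun v => ⟨1, Subtype.ext (by
    rw [pow_one, Subgroup.coe_pow, hexp v v.2, OneMemClass.coe_one])⟩
  set φ := conjHom V with hφ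
  let : CommGroup V := { V.toGroup with mul_comm := fun a b => hcomm.is_comm.comm a b }
  obtain ⟨_⟩ : Nonempty (Module (ZMod p) (Additive V)) := by
    refine ⟨AddCommGroup.zmodModule fun x => ?_⟩
    exact by
      apply Additive.toMul.injective
      rw [toMul_nsmul, toMul_zero]
      exact Subtype.ext (by simpa using hexp _ (Additive.toMul x).2)
  haveI : Module.Finite (ZMod p) (Additive V) := Module.Finite.of_finite
  let act : φ.range → Additive V →+ Additive V := fun h =>
    AddMonoidHom.mk' (fun v => Additive.ofMul ((h : MulAut V) (Additive.toMul v))) fun v w => by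
      rw [toMul_add, map_mul, ofMul_mul]
  let ρ₀ : φ.range →* Module.End (ZMod p) (Additive V) :=
    { toFun := fun h => (act h).toZModLinearMap p
      map_one' := LinearMap.ext fun v => by
        show act 1 v = v
        simp [act]
      map_mul' := fun a b => LinearMap.ext fun v => by
        show act (a * b) v = act a (act b v)
        simp [act, MulAut.mul_apply] }
  let ρ : Representation (ZMod p) φ.range (Additive V) := ρ₀
  have hρ : ∀ (h : φ.range) (v : Additive V),
      Additive.toMul (ρ h v) = (h : MulAut V) (Additive.toMul v) := fun h v => rfl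
  -- the image is nontrivial
  haveI : Nontrivial φ.range := by
    rw [Subgroup.nontrivial_iff_ne_bot]
    intro h
    refine hnc fun v hv => Subgroup.mem_center_iff.2 fun x => ?_
    have hx : x ∈ φ.ker := by
      rw [MonoidHom.mem_ker]
      have : φ x ∈ φ.range := ⟨x, rfl⟩
      rwa [h, Subgroup.mem_bot] at this
    exact ((Subgroup.mem_centralizer_iff.1 ((mem_ker_conjHom V).1 hx)) v hv).symm
  haveI : Group.IsSolvable φ.range :=
    Group.isSolvable_of_surjective φ.rangeRestrict_surjective
  obtain ⟨A, q, hA, hA0, hAc, hq, hAq, -⟩ := H19.exists_normal_elementary (G := φ.range)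
  haveI := hA
  haveI : Fact q.Prime := ⟨hq⟩
  have hqp : q ≠ p := by
    rintro rfl
    apply hA0
    have hR : ∀ t ∈ A.comap φ.rangeRestrict, ∃ j : ℕ, t ^ q ^ j ∈
        Subgroup.centralizer (V : Set X) := fun t ht => by
      obtain ⟨j, hj⟩ := hAq ⟨_, ht⟩
      refine ⟨j, (mem_ker_conjHom V).1 ?_⟩
      have := congrArg (fun a : A => ((a : φ.range) : MulAut V)) hj
      simpa [MonoidHom.mem_ker] using this
    have hle := le_centralizer_of_pGroup_action V hVp hV0 hmin (A.comap φ.rangeRestrict) hR
    refine (Subgroup.eq_bot_iff_forall A).2 fun a ha => ?_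
    obtain ⟨t, rfl⟩ := φ.rangeRestrict_surjective a
    have := (mem_ker_conjHom V).2 (hle ha)
    exact Subtype.ext this
  have hcard : (Nat.card A : ZMod p) ≠ 0 := by
    obtain ⟨j, hj⟩ := IsPGroup.iff_card.1 hAq
    rw [Ne, hj, ZMod.natCast_eq_zero_iff]
    exact fun h => hqp ((Nat.prime_dvd_prime_iff_eq hp.out hq).1 (hp.out.dvd_of_dvd_pow h)).symm
  have hfixA : fixG ρ A = ⊥ := by
    refine (Submodule.eq_bot_iff _).2 fun v hv => ?_
    by_contra hv0
    have hR : A.comap φ.rangeRestrict ≤ Subgroup.centralizer (V : Set X) := by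
      have hvC : ((Additive.toMul v : V) : X) ∈
          Subgroup.centralizer (A.comap φ.rangeRestrict : Set X) := by
        rw [Subgroup.mem_centralizer_iff]
        intro t ht
        have h := congrArg (fun w : Additive V => ((Additive.toMul w : V) : X))
          ((mem_fixG ρ).1 hv _ ht)
        simp only [hρ] at h
        simp [hφ, MonoidHom.rangeRestrict] at h
        calc t * ((Additive.toMul v : V) : X)
            = (t * ((Additive.toMul v : V) : X) * t⁻¹) * t := by rw [inv_mul_cancel_right]
          _ = _ := by rw [h]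
      rcases hmin _ (inferInstance :
          (V ⊓ Subgroup.centralizer (A.comap φ.rangeRestrict : Set X)).Normal) inf_le_left with h | h
      · have hm : ((Additive.toMul v : V) : X) ∈ (V ⊓
            Subgroup.centralizer (A.comap φ.rangeRestrict : Set X)) := ⟨(Additive.toMul v).2, hvC⟩
        rw [h, Subgroup.mem_bot, OneMemClass.coe_eq_one] at hm
        exact absurd (Additive.toMul.injective (hm.trans toMul_zero.symm)) hv0
      · have hle : V ≤ Subgroup.centralizer (A.comap φ.rangeRestrict : Set X) := h.ge.trans inf_le_right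
        exact Subgroup.le_centralizer_iff.1 hle
    apply hA0
    refine (Subgroup.eq_bot_iff_forall A).2 fun a ha => ?_
    obtain ⟨t, rfl⟩ := φ.rangeRestrict_surjective a
    exact Subtype.ext ((mem_ker_conjHom V).2 (hR ha))
  letI : Fintype φ.range := Fintype.ofFinite _
  have key := two_mul_sum_univ_le ρ A
    (fun a ha b hb => congrArg Subtype.val (hAc.is_comm.comm ⟨a, ha⟩ ⟨b, hb⟩)) hcard hfixA
  have hcardV : (Nat.card V).factorization p = finrank (ZMod p) (Additive V) := by
    have h := Module.natCard_eq_pow_finrank (K := ZMod p) (V := Additive V)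
    rw [Nat.card_zmod] at h
    rw [show Nat.card V = p ^ finrank (ZMod p) (Additive V) from
      (Nat.card_congr Additive.ofMul).trans h, Nat.Prime.factorization_pow hp.out,
      Finsupp.single_eq_same]
  have hfib : ∀ x : X, (Nat.card ↥(V ⊓ Subgroup.centralizer ({x} : Set X))).factorization p =
      finrank (ZMod p) ↥(fix1 ρ (φ.rangeRestrict x)) := by
    intro x
    have h := Module.natCard_eq_pow_finrank (K := ZMod p) (V := ↥(fix1 ρ (φ.rangeRestrict x)))
    rw [Nat.card_zmod] at h
    let e : ↥(fix1 ρ (φ.rangeRestrict x)) ≃ ↥(V ⊓ Subgroup.centralizer ({x} : Set X)) :=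
      { toFun := fun v => ⟨((Additive.toMul (v : Additive V) : V) : X),
          (Additive.toMul (v : Additive V)).2, Subgroup.mem_centralizer_singleton_iff.2 (by
            have h' := congrArg (fun w : Additive V => ((Additive.toMul w : V) : X))
              ((mem_fix1 ρ).1 v.2)
            simp only [hρ] at h'
            simp [hφ] at h'
            calc ((Additive.toMul (v : Additive V) : V) : X) * x
                = (x * ((Additive.toMul (v : Additive V) : V) : X) * x⁻¹) * x := by rw [h']
              _ = _ := by rw [inv_mul_cancel_right])⟩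
        invFun := fun w => ⟨Additive.ofMul ⟨(w : X), w.2.1⟩, (mem_fix1 ρ).2 (by
          apply Additive.toMul.injective
          rw [hρ]
          apply Subtype.ext
          simp [hφ, ← Subgroup.mem_centralizer_singleton_iff.1 w.2.2])⟩
        left_inv := fun v => rfl
        right_inv := fun w => rfl }
    rw [← Nat.card_congr e, h, Nat.Prime.factorization_pow hp.out, Finsupp.single_eq_same]
  have hkey2 : ∑ x : X, finrank (ZMod p) ↥(fix1 ρ (φ.rangeRestrict x)) =
      Nat.card φ.ker * ∑ h : φ.range, finrank (ZMod p) ↥(fix1 ρ h) := by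
    rw [Finset.mul_sum, ← Fintype.sum_fiberwise φ.rangeRestrict]
    refine Finset.sum_congr rfl fun h _ => ?_
    rw [Finset.sum_congr rfl (g := fun _ => finrank (ZMod p) ↥(fix1 ρ h))
      (fun (x : {x : X // φ.rangeRestrict x = h}) _ => by rw [x.2]),
      Finset.sum_const, Finset.card_univ, smul_eq_mul]
    congr 1
    rw [← Nat.card_eq_fintype_card]
    obtain ⟨x₀, rfl⟩ := φ.rangeRestrict_surjective h
    refine Nat.card_congr
      { toFun := fun x => ⟨x₀⁻¹ * (x : X), by
          rw [MonoidHom.mem_ker, map_mul, map_inv, inv_mul_eq_one]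
          exact (congrArg Subtype.val x.2).symm⟩
        invFun := fun z => ⟨x₀ * z, Subtype.ext (by
          show φ (x₀ * z) = φ x₀
          rw [map_mul, MonoidHom.mem_ker.1 z.2, mul_one])⟩
        left_inv := fun x => Subtype.ext (by simp)
        right_inv := fun z => Subtype.ext (by simp) }
  rw [Finset.sum_congr rfl fun x _ => hfib x, hkey2, hcardV,
    show Nat.card X = Nat.card φ.ker * Nat.card φ.range by
      rw [← Subgroup.index_ker, Subgroup.card_mul_index], mul_left_comm, mul_assoc]
  exact Nat.mul_le_mul_left _ key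

end Cfsg.Agent.H52.AvgFix
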