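import Mathlib

/-!
Average dimension of the fixed spaces over a coset of an abelian normal subgroup of coprime order
without fixed points: at most half of the dimension.
-/

set_option autoImplicit false
set_option linter.unusedSectionVars false

namespace Cfsg.Agent.H52.AvgFix

open Module

variable {k V H : Type*} [Field k] [AddCommGroup V] [Module k V] [FiniteDimensional k V]
  [Group H] [Finite H] (ρ : Representation k H V)

/-- The fixed space of one element. -/
def fix1 (h : H) : Submodule k V := LinearMap.ker (ρ h - 1)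

theorem mem_fix1 {h : H} {v : V} : v ∈ fix1 ρ h ↔ ρ h v = v := by
  simp [fix1, sub_eq_zero]

/-- The fixed space of a subgroup. -/
def fixG (K : Subgroup H) : Submodule k V := ⨅ a : K, fix1 ρ (a : H)

theorem mem_fixG {K : Subgroup H} {v : V} : v ∈ fixG ρ K ↔ ∀ a ∈ K, ρ a v = v := by
  simp [fixG, mem_fix1]

/-- The stabiliser of a vector. -/
def stabV (v : V) : Subgroup H where
  carrier := {h | ρ h v = v}
  one_mem' := by simp
  mul_mem' := fun {a b} (ha : ρ a v = v) (hb : ρ b v = v) => by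
    show ρ (a * b) v = v
    rw [map_mul, Module.End.mul_apply, hb, ha]
  inv_mem' := fun {a} (ha : ρ a v = v) => by
    show ρ a⁻¹ v = v
    conv_lhs => rw [← ha]
    rw [← Module.End.mul_apply, ← map_mul, inv_mul_cancel, map_one, Module.End.one_apply]

theorem rho_injective (h : H) : Function.Injective (ρ h) := fun x y hxy => by
  have := congrArg (ρ h⁻¹) hxy
  rwa [← Module.End.mul_apply, ← Module.End.mul_apply, ← map_mul, inv_mul_cancel, map_one,
    Module.End.one_apply, Module.End.one_apply] at this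

open scoped Classical in
/-- The average over a subgroup. -/
noncomputable def avg (K : Subgroup H) : V →ₗ[k] V :=
  letI := Fintype.ofFinite K
  ((Nat.card K : k))⁻¹ • ∑ a : K, ρ (a : H)

theorem avg_apply (K : Subgroup H) [Fintype K] (v : V) :
    avg ρ K v = ((Nat.card K : k))⁻¹ • ∑ a : K, ρ (a : H) v := by
  unfold avg
  rw [Subsingleton.elim (Fintype.ofFinite K) ‹Fintype K›]
  simp [LinearMap.sum_apply]

theorem avg_mem (K : Subgroup H) (v : V) : avg ρ K v ∈ fixG ρ K := by
  letI := Fintype.ofFinite K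
  rw [mem_fixG]
  intro b hb
  rw [avg_apply, map_smul, map_sum]
  congr 1
  refine Fintype.sum_equiv (Equiv.mulLeft (⟨b, hb⟩ : K)) _ _ fun a => ?_
  simp [map_mul]

theorem avg_fixed {K : Subgroup H} (hK : (Nat.card K : k) ≠ 0) {v : V} (hv : v ∈ fixG ρ K) :
    avg ρ K v = v := by
  letI := Fintype.ofFinite K
  rw [avg_apply, Finset.sum_congr rfl fun (a : K) _ => (mem_fixG ρ).1 hv (a : H) a.2, Finset.sum_const,
    Finset.card_univ, ← Nat.card_eq_fintype_card, ← Nat.cast_smul_eq_nsmul k, smul_smul,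
    inv_mul_cancel₀ hK, one_smul]

theorem rho_avg (h : H) (K : Subgroup H) (v : V) :
    ρ h (avg ρ K v) = avg ρ (K.map (MulAut.conj h).toMonoidHom) (ρ h v) := by
  letI := Fintype.ofFinite K
  letI := Fintype.ofFinite (K.map (MulAut.conj h).toMonoidHom)
  rw [avg_apply, avg_apply, map_smul, map_sum,
    ← Nat.card_congr (K.equivMapOfInjective (MulAut.conj h).toMonoidHom
      (MulAut.conj h).injective).toEquiv]
  congr 1
  refine Fintype.sum_equiv (K.equivMapOfInjective (MulAut.conj h).toMonoidHom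
    (MulAut.conj h).injective).toEquiv _ _ fun a => ?_
  have hc : ((K.equivMapOfInjective (MulAut.conj h).toMonoidHom
      (MulAut.conj h).injective a : K.map (MulAut.conj h).toMonoidHom) : H) = h * a * h⁻¹ := rfl
  show ρ h (ρ a v) = ρ _ (ρ h v)
  rw [MulEquiv.toEquiv_eq_coe, MulEquiv.coe_toEquiv, hc, ← Module.End.mul_apply,
    ← Module.End.mul_apply, ← map_mul, ← map_mul, inv_mul_cancel_right]

theorem avg_mem_of_invariant {W : Submodule k V} {K : Subgroup H}
    (hW : ∀ a ∈ K, ∀ v ∈ W, ρ a v ∈ W) {v : V} (hv : v ∈ W) : avg ρ K v ∈ W := by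
  letI := Fintype.ofFinite K
  rw [avg_apply]
  exact W.smul_mem _ (W.sum_mem fun a _ => hW a a.2 v hv)

theorem map_conj_eq_of_comm {A L : Subgroup H} (hcomm : ∀ a ∈ A, ∀ b ∈ A, a * b = b * a)
    (hL : L ≤ A) {a : H} (ha : a ∈ A) : L.map (MulAut.conj a).toMonoidHom = L := by
  ext x
  constructor
  · rintro ⟨y, hy, rfl⟩
    simpa [MulAut.conj_apply, hcomm a ha y (hL hy)] using hy
  · intro hx
    exact ⟨x, hx, by simp [MulAut.conj_apply, hcomm a ha x (hL hx)]⟩

theorem map_conj_mul (g h : H) (L : Subgroup H) :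
    L.map (MulAut.conj (g * h)).toMonoidHom =
      (L.map (MulAut.conj h).toMonoidHom).map (MulAut.conj g).toMonoidHom := by
  rw [Subgroup.map_map]
  congr 1
  ext x
  simp [MulAut.conj_apply, mul_assoc]

/-- Fixed spaces over the coset `g A`: on average at most half of an invariant space. -/
theorem two_mul_sum_le (A : Subgroup H) [A.Normal] [Fintype A]
    (hcomm : ∀ a ∈ A, ∀ b ∈ A, a * b = b * a) (hcard : (Nat.card A : k) ≠ 0)
    (hA : fixG ρ A = ⊥) (g : H) :
    ∀ W : Submodule k V, (∀ v ∈ W, ρ g v ∈ W) → (∀ a ∈ A, ∀ v ∈ W, ρ a v ∈ W) →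
      2 * ∑ a : A, finrank k ↥(W ⊓ fix1 ρ (g * (a : H))) ≤ Nat.card A * finrank k W := by
  classical
  intro W
  induction hn : finrank k W using Nat.strong_induction_on generalizing W with
  | _ n ih =>
    subst hn
    intro hgW hAW
    rcases eq_or_ne W ⊥ with rfl | hW0
    · simp
    letI : Fintype (Subgroup H) := Fintype.ofFinite _
    have hKcard : ∀ K : Subgroup H, K ≤ A → (Nat.card K : k) ≠ 0 := fun K hK h0 => hcard (by
      obtain ⟨c, hc⟩ := Subgroup.card_dvd_of_le hK
      rw [hc, Nat.cast_mul, h0, zero_mul])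
    -- the maximal subgroup with fixed vectors
    obtain ⟨K, ⟨hKA, hK0⟩, hKmax⟩ :
        ∃ K : Subgroup H, (K ≤ A ∧ W ⊓ fixG ρ K ≠ ⊥) ∧
          ∀ L, K ≤ L → L ≤ A → W ⊓ fixG ρ L ≠ ⊥ → L = K := by
      obtain ⟨K, hK, hmax⟩ := Set.Finite.exists_maximal
        (Set.toFinite {K : Subgroup H | K ≤ A ∧ W ⊓ fixG ρ K ≠ ⊥})
        ⟨⊥, bot_le, by
          have : fixG ρ (⊥ : Subgroup H) = ⊤ := eq_top_iff.2 fun v _ => (mem_fixG ρ).2
            fun a ha => by rw [Subgroup.mem_bot.1 ha]; simp
          rwa [this, inf_top_eq]⟩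
      exact ⟨K, hK, fun L h1 h2 h3 => le_antisymm (hmax ⟨h2, h3⟩ h1) h1⟩
    have hpowW : ∀ (n : ℕ), ∀ v ∈ W, ρ (g ^ n) v ∈ W := by
      intro n
      induction n with
      | zero => simp
      | succ n ih' => intro v hv; rw [pow_succ, map_mul, Module.End.mul_apply]; exact ih' _ (hgW v hv)
    set O : Finset (Subgroup H) := Finset.univ.filter
      fun L => ∃ n : ℕ, L = K.map (MulAut.conj (g ^ n)).toMonoidHom with hO
    have hmemO : ∀ {L}, L ∈ O ↔ ∃ n : ℕ, L = K.map (MulAut.conj (g ^ n)).toMonoidHom := by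
      simp [hO]
    have hKO : K ∈ O := hmemO.2 ⟨0, by ext x; simp [Subgroup.mem_map]⟩
    have hconjA : ∀ (h : H) (L : Subgroup H), L ≤ A → L.map (MulAut.conj h).toMonoidHom ≤ A := by
      rintro h L hL x ⟨y, hy, rfl⟩
      exact ‹A.Normal›.conj_mem y (hL hy) h
    have hOA : ∀ L ∈ O, L ≤ A := fun L hL => by
      obtain ⟨n, rfl⟩ := hmemO.1 hL; exact hconjA _ K hKA
    have hfixconj : ∀ (h : H) (L : Subgroup H) (v : V), v ∈ fixG ρ L →
        ρ h v ∈ fixG ρ (L.map (MulAut.conj h).toMonoidHom) := by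
      intro h L v hv
      rw [mem_fixG]
      rintro _ ⟨y, hy, rfl⟩
      show ρ (h * y * h⁻¹) (ρ h v) = ρ h v
      rw [← Module.End.mul_apply, ← map_mul, inv_mul_cancel_right, map_mul, Module.End.mul_apply,
        (mem_fixG ρ).1 hv y hy]
    have hOmax : ∀ L ∈ O, ∀ L', L ≤ L' → L' ≤ A → W ⊓ fixG ρ L' ≠ ⊥ → L' ≤ L := by
      intro L hL L' hle hL'A hL'0
      obtain ⟨n, rfl⟩ := hmemO.1 hL
      obtain ⟨m, hm⟩ : ∃ m : ℕ, g ^ m = (g ^ n)⁻¹ := by
        exact (isOfFinOrder_of_finite g).mem_powers_iff_mem_zpowers.2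
          (inv_mem (Subgroup.npow_mem_zpowers g n))
      have hback : ∀ M : Subgroup H, (M.map (MulAut.conj (g ^ n)).toMonoidHom).map
          (MulAut.conj (g ^ m)).toMonoidHom = M := fun M => by
        rw [← map_conj_mul, hm, inv_mul_cancel]; ext x; simp [Subgroup.mem_map]
      have h1 := hKmax (L'.map (MulAut.conj (g ^ m)).toMonoidHom)
        ((hback K).symm.le.trans (Subgroup.map_mono hle)) (hconjA _ _ hL'A) (by
          obtain ⟨v, hv, hv0⟩ := Submodule.exists_mem_ne_zero_of_ne_bot hL'0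
          refine (Submodule.ne_bot_iff _).2 ⟨ρ (g ^ m) v,
            Submodule.mem_inf.2 ⟨hpowW m v (Submodule.mem_inf.1 hv).1,
              hfixconj _ _ _ (Submodule.mem_inf.1 hv).2⟩, fun h => hv0 (rho_injective ρ (g ^ m) (h.trans (map_zero _).symm))⟩)
      intro x hx
      refine ⟨g ^ m * x * (g ^ m)⁻¹, ?_, ?_⟩
      · rw [← h1]; exact ⟨x, hx, rfl⟩
      · show g ^ n * (g ^ m * x * (g ^ m)⁻¹) * (g ^ n)⁻¹ = x
        rw [hm]; group
    have hcommavg : ∀ L ≤ A, ∀ a ∈ A, ∀ v, ρ a (avg ρ L v) = avg ρ L (ρ a v) := fun L hL a ha v => by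
      rw [rho_avg, map_conj_eq_of_comm hcomm hL ha]
    have hortho : ∀ L ∈ O, ∀ L' ∈ O, L ≠ L' → ∀ v ∈ W, avg ρ L (avg ρ L' v) = 0 := by
      intro L hL L' hL' hne v hv
      by_contra h0
      set x := avg ρ L (avg ρ L' v) with hx
      have hxW : x ∈ W := avg_mem_of_invariant ρ (fun a ha => hAW a (hOA L hL ha))
        (avg_mem_of_invariant ρ (fun a ha => hAW a (hOA L' hL' ha)) hv)
      have hle : L ⊔ L' ≤ stabV ρ x := sup_le (fun a ha => (mem_fixG ρ).1 (avg_mem ρ L _) a ha)
        (fun a ha => by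
          show ρ a x = x
          rw [hx, hcommavg L (hOA L hL) a (hOA L' hL' ha),
            (mem_fixG ρ).1 (avg_mem ρ L' v) a ha])
      have hne0 : W ⊓ fixG ρ (L ⊔ L') ≠ ⊥ := (Submodule.ne_bot_iff _).2
        ⟨x, Submodule.mem_inf.2 ⟨hxW, (mem_fixG ρ).2 fun a ha => hle ha⟩, h0⟩
      have hLA : L ⊔ L' ≤ A := sup_le (hOA L hL) (hOA L' hL')
      exact hne (le_antisymm (le_sup_left.trans (hOmax L' hL' _ le_sup_right hLA hne0))
        (le_sup_right.trans (hOmax L hL _ le_sup_left hLA hne0)))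
    set E : V →ₗ[k] V := ∑ L ∈ O, avg ρ L with hE
    have hEapp : ∀ v, E v = ∑ L ∈ O, avg ρ L v := fun v => by simp [hE, LinearMap.sum_apply]
    have hEW : ∀ v ∈ W, E v ∈ W := fun v hv => by
      rw [hEapp]
      exact W.sum_mem fun L hL => avg_mem_of_invariant ρ (fun a ha => hAW a (hOA L hL ha)) hv
    have hEsingle : ∀ L ∈ O, ∀ v ∈ W, avg ρ L (E v) = avg ρ L v := by
      intro L hL v hv
      rw [hEapp, map_sum, Finset.sum_eq_single L (fun L' hL' hne => hortho L hL L' hL' hne.symm v hv)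
        (fun h => absurd hL h), avg_fixed ρ (hKcard L (hOA L hL)) (avg_mem ρ L v)]
    have hEE : ∀ v ∈ W, E (E v) = E v := fun v hv => by
      rw [hEapp (E v), hEapp v]
      refine Finset.sum_congr rfl fun L hL => ?_
      rw [← hEapp v]
      exact hEsingle L hL v hv
    have hEA : ∀ a ∈ A, ∀ v, ρ a (E v) = E (ρ a v) := fun a ha v => by
      rw [hEapp, hEapp, map_sum]
      exact Finset.sum_congr rfl fun L hL => hcommavg L (hOA L hL) a ha v
    have hEg : ∀ v, ρ g (E v) = E (ρ g v) := fun v => by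
      let c : Subgroup H ↪ Subgroup H := ⟨fun L => L.map (MulAut.conj g).toMonoidHom,
        Subgroup.map_injective (MulAut.conj g).injective⟩
      have hOc : O.map c = O := by
        refine Finset.eq_of_subset_of_card_le ?_ (by simp)
        intro L hL
        obtain ⟨L', hL', rfl⟩ := Finset.mem_map.1 hL
        obtain ⟨n, rfl⟩ := hmemO.1 hL'
        exact hmemO.2 ⟨n + 1, by rw [pow_succ', map_conj_mul]; rfl⟩
      rw [hEapp, map_sum, hEapp (ρ g v)]
      conv_rhs => rw [← hOc, Finset.sum_map]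
      exact Finset.sum_congr rfl fun L _ => rho_avg ρ g L v
    set W1 := W ⊓ LinearMap.ker (E - 1) with hW1
    set W0 := W ⊓ LinearMap.ker E with hW0'
    have hmem1 : ∀ {v}, v ∈ W1 ↔ v ∈ W ∧ E v = v := by simp [hW1, sub_eq_zero]
    have hmem0 : ∀ {v}, v ∈ W0 ↔ v ∈ W ∧ E v = 0 := by simp [hW0']
    have hinf : W1 ⊓ W0 = ⊥ := by
      refine (Submodule.eq_bot_iff _).2 fun v hv => ?_
      obtain ⟨h1, h0⟩ := Submodule.mem_inf.1 hv
      rw [← (hmem1.1 h1).2, (hmem0.1 h0).2]
    have hsplit : ∀ v ∈ W, E v ∈ W1 ∧ v - E v ∈ W0 := fun v hv =>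
      ⟨hmem1.2 ⟨hEW v hv, hEE v hv⟩,
        hmem0.2 ⟨W.sub_mem hv (hEW v hv), by rw [map_sub, hEE v hv, sub_self]⟩⟩
    have hsum : finrank k W1 + finrank k W0 = finrank k W := by
      have h := Submodule.finrank_sup_add_finrank_inf_eq W1 W0
      rw [hinf, finrank_bot, add_zero] at h
      rw [← h, show W1 ⊔ W0 = W from le_antisymm (sup_le inf_le_left inf_le_left) fun v hv => by
        obtain ⟨h1, h0⟩ := hsplit v hv
        exact Submodule.mem_sup.2 ⟨E v, h1, v - E v, h0, by abel⟩]
    -- the fixed spaces split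
    have hfa : ∀ a : A, finrank k ↥(W ⊓ fix1 ρ (g * (a : H))) ≤
        finrank k ↥(W1 ⊓ fix1 ρ (g * (a : H))) + finrank k ↥(W0 ⊓ fix1 ρ (g * (a : H))) := by
      intro a
      refine le_trans (Submodule.finrank_mono ?_) (Submodule.finrank_add_le_finrank_add_finrank _ _)
      intro v hv
      obtain ⟨hvW, hvf⟩ := Submodule.mem_inf.1 hv
      rw [mem_fix1] at hvf
      obtain ⟨h1, h0⟩ := hsplit v hvW
      have hEv : ρ (g * (a : H)) (E v) = E v := by
        conv_rhs => rw [← hvf]
        simp only [map_mul, Module.End.mul_apply, hEA (a : H) a.2, hEg]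
      exact Submodule.mem_sup.2 ⟨E v, Submodule.mem_inf.2 ⟨h1, (mem_fix1 ρ).2 hEv⟩, v - E v,
        Submodule.mem_inf.2 ⟨h0, (mem_fix1 ρ).2 (by rw [map_sub, hvf, hEv])⟩, by abel⟩
    -- fixed vectors of members of the orbit lie in `W1`
    have hfixW1 : ∀ L ∈ O, W ⊓ fixG ρ L ≤ W1 := by
      intro L hL v hv
      obtain ⟨hvW, hvL⟩ := Submodule.mem_inf.1 hv
      refine hmem1.2 ⟨hvW, ?_⟩
      have hLv := avg_fixed ρ (hKcard L (hOA L hL)) hvL
      rw [hEapp, Finset.sum_eq_single L (fun L' hL' hne => by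
        rw [← hLv]; exact hortho L' hL' L hL hne v hvW) (fun h => absurd hL h), hLv]
    have hW1lt : finrank k W0 < finrank k W := by
      have : 0 < finrank k W1 := Nat.pos_of_ne_zero fun h => hK0 (le_bot_iff.1
        ((hfixW1 K hKO).trans (Submodule.finrank_eq_zero.1 h).le))
      omega
    have h0bound : 2 * ∑ a : A, finrank k ↥(W0 ⊓ fix1 ρ (g * (a : H))) ≤
        Nat.card A * finrank k W0 := ih _ hW1lt W0 rfl
      (fun v hv => hmem0.2 ⟨hgW v (hmem0.1 hv).1, by rw [← hEg, (hmem0.1 hv).2, map_zero]⟩)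
      (fun a ha v hv => hmem0.2 ⟨hAW a ha v (hmem0.1 hv).1,
        by rw [← hEA a ha, (hmem0.1 hv).2, map_zero]⟩)
    have h1bound : 2 * ∑ a : A, finrank k ↥(W1 ⊓ fix1 ρ (g * (a : H))) ≤
        Nat.card A * finrank k W1 := by
      by_cases horb : ∀ L ∈ O, L = K
      · -- the subgroup is invariant: pair the coset elements
        obtain ⟨c, hcA, hcK⟩ : ∃ c ∈ A, c ∉ K := by
          by_contra hall
          push Not at hall
          apply hK0
          rw [le_antisymm hKA hall, hA, inf_bot_eq]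
        set f : A → ℕ := fun a => finrank k ↥(W1 ⊓ fix1 ρ (g * (a : H))) with hf
        have hpair : ∀ a : A, f a + f (a * ⟨c, hcA⟩) ≤ finrank k W1 := by
          intro a
          have hbot : (W1 ⊓ fix1 ρ (g * (a : H))) ⊓
              (W1 ⊓ fix1 ρ (g * ((a * ⟨c, hcA⟩ : A) : H))) = ⊥ := by
            refine (Submodule.eq_bot_iff _).2 fun v hv => ?_
            obtain ⟨h1, h2⟩ := Submodule.mem_inf.1 hv
            obtain ⟨hv1, hva⟩ := Submodule.mem_inf.1 h1
            have hvc := (Submodule.mem_inf.1 h2).2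
            rw [mem_fix1] at hva hvc
            obtain ⟨hvW, hEv⟩ := hmem1.1 hv1
            by_contra hv0
            have hKv : v ∈ fixG ρ K := by
              rw [← hEv, hEapp, Finset.sum_eq_single K
                (fun L hL hne => absurd (horb L hL) hne) (fun h => absurd hKO h)]
              exact avg_mem ρ K v
            have hcv : ρ c v = v := rho_injective ρ (g * (a : H)) <| by
              rw [← Module.End.mul_apply, ← map_mul, hva, mul_assoc]
              exact hvc
            have hle : K ⊔ Subgroup.zpowers c ≤ stabV ρ v :=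
              sup_le (fun b hb => (mem_fixG ρ).1 hKv b hb)
                (Subgroup.zpowers_le.2 hcv)
            have hmax := hKmax (K ⊔ Subgroup.zpowers c) le_sup_left
              (sup_le hKA (Subgroup.zpowers_le.2 hcA)) ((Submodule.ne_bot_iff _).2
                ⟨v, Submodule.mem_inf.2 ⟨hvW, (mem_fixG ρ).2 fun b hb => hle hb⟩, hv0⟩)
            exact hcK (hmax ▸ Subgroup.mem_sup_right (Subgroup.mem_zpowers c))
          have h := Submodule.finrank_sup_add_finrank_inf_eq (W1 ⊓ fix1 ρ (g * (a : H)))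
              (W1 ⊓ fix1 ρ (g * ((a * ⟨c, hcA⟩ : A) : H)))
          rw [hbot, finrank_bot, add_zero] at h
          simp only [hf]
          rw [← h]
          exact Submodule.finrank_mono (sup_le inf_le_left inf_le_left)
        have hshift : ∑ a : A, f (a * ⟨c, hcA⟩) = ∑ a : A, f a :=
          Fintype.sum_equiv (Equiv.mulRight _) _ _ fun a => rfl
        calc 2 * ∑ a : A, f a = ∑ a : A, (f a + f (a * ⟨c, hcA⟩)) := by
              rw [Finset.sum_add_distrib, hshift, two_mul]
          _ ≤ ∑ _a : A, finrank k W1 := Finset.sum_le_sum fun a _ => hpair a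
          _ = Nat.card A * finrank k W1 := by
              rw [Finset.sum_const, Finset.card_univ, smul_eq_mul, Nat.card_eq_fintype_card]
      · push Not at horb
        obtain ⟨L, hL, hLK⟩ := horb
        have hd : 2 * finrank k ↥(W ⊓ fixG ρ K) ≤ finrank k W1 := by
          obtain ⟨n, rfl⟩ := hmemO.1 hL
          have hle : finrank k ↥(W ⊓ fixG ρ K) ≤
              finrank k ↥(W ⊓ fixG ρ (K.map (MulAut.conj (g ^ n)).toMonoidHom)) := by
            refine LinearMap.finrank_le_finrank_of_injective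
              (f := ((ρ (g ^ n)).domRestrict (W ⊓ fixG ρ K)).codRestrict _ fun v =>
                Submodule.mem_inf.2 ⟨hpowW n _ (Submodule.mem_inf.1 v.2).1,
                  hfixconj _ _ _ (Submodule.mem_inf.1 v.2).2⟩) ?_
            intro x y hxy
            exact Subtype.ext (rho_injective ρ _ (congrArg Subtype.val hxy))
          have hbot : (W ⊓ fixG ρ K) ⊓
              (W ⊓ fixG ρ (K.map (MulAut.conj (g ^ n)).toMonoidHom)) = ⊥ := by
            refine (Submodule.eq_bot_iff _).2 fun v hv => ?_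
            obtain ⟨h1, h2⟩ := Submodule.mem_inf.1 hv
            have e := hortho _ hL K hKO hLK v (Submodule.mem_inf.1 h1).1
            rwa [avg_fixed ρ (hKcard K hKA) (Submodule.mem_inf.1 h1).2,
              avg_fixed ρ (hKcard _ (hOA _ hL)) (Submodule.mem_inf.1 h2).2] at e
          have h := Submodule.finrank_sup_add_finrank_inf_eq (W ⊓ fixG ρ K)
            (W ⊓ fixG ρ (K.map (MulAut.conj (g ^ n)).toMonoidHom))
          rw [hbot, finrank_bot, add_zero] at h
          have hm := Submodule.finrank_mono (sup_le (hfixW1 K hKO) (hfixW1 _ hL))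
          omega
        have hub : ∀ a : A, finrank k ↥(W1 ⊓ fix1 ρ (g * (a : H))) ≤
            finrank k ↥(W ⊓ fixG ρ K) := by
          intro a
          refine LinearMap.finrank_le_finrank_of_injective
            (f := ((avg ρ K).domRestrict (W1 ⊓ fix1 ρ (g * (a : H)))).codRestrict _ fun v =>
              Submodule.mem_inf.2 ⟨avg_mem_of_invariant ρ (fun b hb => hAW b (hKA hb))
                (hmem1.1 (Submodule.mem_inf.1 v.2).1).1, avg_mem ρ K _⟩) ?_
          rw [← LinearMap.ker_eq_bot, Submodule.eq_bot_iff]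
          rintro ⟨u, hu⟩ hu0
          have hKu : avg ρ K u = 0 := congrArg Subtype.val (LinearMap.mem_ker.1 hu0)
          obtain ⟨hu1, huf⟩ := Submodule.mem_inf.1 hu
          rw [mem_fix1] at huf
          have hall : ∀ n : ℕ, avg ρ (K.map (MulAut.conj (g ^ n)).toMonoidHom) u = 0 := by
            intro n
            induction n with
            | zero =>
              convert hKu using 3
              ext x; simp [Subgroup.mem_map]
            | succ n ih' =>
              have h := congrArg (ρ (g * (a : H))) ih'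
              rwa [rho_avg, map_zero, huf, map_conj_mul,
                map_conj_eq_of_comm hcomm (hconjA _ K hKA) a.2, ← map_conj_mul, ← pow_succ'] at h
          refine Subtype.ext ?_
          show u = 0
          rw [← (hmem1.1 hu1).2, hEapp]
          exact Finset.sum_eq_zero fun M hM => by
            obtain ⟨m, rfl⟩ := hmemO.1 hM; exact hall m
        calc 2 * ∑ a : A, finrank k ↥(W1 ⊓ fix1 ρ (g * (a : H)))
            ≤ 2 * ∑ _a : A, finrank k ↥(W ⊓ fixG ρ K) :=
              Nat.mul_le_mul_left _ (Finset.sum_le_sum fun a _ => hub a)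
          _ = Nat.card A * (2 * finrank k ↥(W ⊓ fixG ρ K)) := by
              rw [Finset.sum_const, Finset.card_univ, smul_eq_mul, Nat.card_eq_fintype_card]; ring
          _ ≤ Nat.card A * finrank k W1 := Nat.mul_le_mul_left _ hd
    calc 2 * ∑ a : A, finrank k ↥(W ⊓ fix1 ρ (g * (a : H)))
        ≤ 2 * ∑ a : A, (finrank k ↥(W1 ⊓ fix1 ρ (g * (a : H))) +
            finrank k ↥(W0 ⊓ fix1 ρ (g * (a : H)))) :=
          Nat.mul_le_mul_left _ (Finset.sum_le_sum fun a _ => hfa a)
      _ ≤ Nat.card A * finrank k W1 + Nat.card A * finrank k W0 := by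
          rw [Finset.sum_add_distrib, mul_add]; exact Nat.add_le_add h1bound h0bound
      _ = Nat.card A * finrank k W := by rw [← mul_add, hsum]

/-- Summed over the whole group. -/
theorem two_mul_sum_univ_le [Fintype H] (A : Subgroup H) [A.Normal]
    (hcomm : ∀ a ∈ A, ∀ b ∈ A, a * b = b * a) (hcard : (Nat.card A : k) ≠ 0)
    (hA : fixG ρ A = ⊥) :
    2 * ∑ h : H, finrank k ↥(fix1 ρ h) ≤ Nat.card H * finrank k V := by
  classical
  have h1 : ∀ g : H, 2 * ∑ a : A, finrank k ↥(fix1 ρ (g * (a : H))) ≤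
      Nat.card A * finrank k V := fun g => by
    have h := two_mul_sum_le ρ A hcomm hcard hA g ⊤ (fun _ _ => Submodule.mem_top)
      (fun _ _ _ _ => Submodule.mem_top)
    rw [finrank_top] at h
    rwa [Finset.sum_congr rfl fun a _ =>
      (LinearEquiv.ofEq (⊤ ⊓ fix1 ρ (g * ((a : A) : H))) _ (top_inf_eq _)).finrank_eq] at h
  have h2 : Nat.card A * (2 * ∑ h : H, finrank k ↥(fix1 ρ h)) ≤
      Nat.card A * (Nat.card H * finrank k V) := by
    calc Nat.card A * (2 * ∑ h : H, finrank k ↥(fix1 ρ h))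
        = ∑ _a : A, 2 * ∑ h : H, finrank k ↥(fix1 ρ h) := by
          rw [Finset.sum_const, Finset.card_univ, smul_eq_mul, Nat.card_eq_fintype_card]
      _ = ∑ a : A, 2 * ∑ g : H, finrank k ↥(fix1 ρ (g * (a : H))) :=
          Finset.sum_congr rfl fun a _ => congrArg (2 * ·)
            (Fintype.sum_equiv (Equiv.mulRight (a : H)⁻¹) _ _ fun h => by
              show _ = finrank k ↥(fix1 ρ (h * (a : H)⁻¹ * (a : H)))
              rw [inv_mul_cancel_right])
      _ = ∑ g : H, 2 * ∑ a : A, finrank k ↥(fix1 ρ (g * (a : H))) := by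
          simp only [Finset.mul_sum]; exact Finset.sum_comm
      _ ≤ ∑ _g : H, Nat.card A * finrank k V := Finset.sum_le_sum fun g _ => h1 g
      _ = Nat.card A * (Nat.card H * finrank k V) := by
          rw [Finset.sum_const, Finset.card_univ, smul_eq_mul, Nat.card_eq_fintype_card (α := H)]
          ring
  exact Nat.le_of_mul_le_mul_left h2 Nat.card_pos

end Cfsg.Agent.H52.AvgFix
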