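import Cfsg.Agent.H52.AvgFix.Chief
import Cfsg.Agent.H51.Basic
import Cfsg.Agent.H44.Codegree

/-!
Metanilpotent groups with two prime divisors: one class carries both prime parts of a primitive
degree.
-/

set_option autoImplicit false
set_option linter.unusedSectionVars false

namespace Cfsg.Agent.H52.AvgFix

/-- A nilpotent normal subgroup centralises a minimal normal subgroup. -/
theorem le_centralizer_of_nilpotent {X : Type*} [Group X] (V F : Subgroup X) [V.Normal] [F.Normal]
    [Group.IsNilpotent F] (hmin : ∀ K : Subgroup X, K.Normal → K ≤ V → K = ⊥ ∨ K = V) :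
    F ≤ Subgroup.centralizer (V : Set X) := by
  rw [← Subgroup.commutator_eq_bot_iff_le_centralizer]
  rcases hmin ⁅F, V⁆ (Subgroup.commutator_normal F V) (Subgroup.commutator_le_right F V) with h | h
  · exact h
  · have hVF : V ≤ F := h ▸ Subgroup.commutator_le_left F V
    have hlcs : ∀ n, V ≤ F.lowerCentralSeries n := by
      intro n
      induction n with
      | zero => exact hVF
      | succ n ih =>
        rw [Subgroup.lowerCentralSeries_succ, ← h, Subgroup.commutator_comm F V]
        exact Subgroup.commutator_mono ih le_rfl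
    obtain ⟨n, hn⟩ := (Subgroup.isNilpotent_iff_lowerCentralSeries F).1 ‹_›
    rw [h]
    exact le_bot_iff.1 (hn ▸ hlcs n)

variable {G : Type*} [Group G] [Fintype G]

/-- In a metanilpotent group `F(G)` with a Sylow `p`-subgroup centralises the `p`-chief factors. -/
theorem map_le_centralizer_chief [(Cfsg.fittingSubgroup G).Normal]
    (hmeta : Group.IsNilpotent (G ⧸ Cfsg.fittingSubgroup G)) (p : ℕ) [Fact p.Prime] (P : Sylow p G)
    (M N : Subgroup G) [M.Normal] (hN : N.Normal) (hMN : M < N)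
    (hchief : ∀ K : Subgroup G, K.Normal → M ≤ K → K ≤ N → K = M ∨ K = N)
    (hp : IsPGroup p (N.map (QuotientGroup.mk' M))) :
    (Cfsg.fittingSubgroup G ⊔ (P : Subgroup G)).map (QuotientGroup.mk' M) ≤
      Subgroup.centralizer (N.map (QuotientGroup.mk' M) : Set (G ⧸ M)) := by
  classical
  set F := Cfsg.fittingSubgroup G with hF
  set V := N.map (QuotientGroup.mk' M) with hV
  have hsurj := QuotientGroup.mk'_surjective M
  haveI : V.Normal := hN.map _ hsurj
  have hVmin : ∀ K : Subgroup (G ⧸ M), K.Normal → K ≤ V → K = ⊥ ∨ K = V := by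
    intro K hK hKV
    have h1 : M ≤ K.comap (QuotientGroup.mk' M) := fun x hx => by
      rw [Subgroup.mem_comap, QuotientGroup.mk'_apply, (QuotientGroup.eq_one_iff x).2 hx]
      exact K.one_mem
    have h2 : K.comap (QuotientGroup.mk' M) ≤ N := by
      refine (Subgroup.comap_mono hKV).trans ?_
      rw [hV, Subgroup.comap_map_eq, QuotientGroup.ker_mk', sup_eq_left.2 hMN.le]
    have hmap := Subgroup.map_comap_eq_self_of_surjective hsurj K
    rcases hchief _ (hK.comap _) h1 h2 with h | h
    · exact Or.inl (by rw [← hmap, h, QuotientGroup.map_mk'_self])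
    · exact Or.inr (by rw [← hmap, h])
  have hV0 : V ≠ ⊥ := fun h => by
    rw [hV, Subgroup.map_eq_bot_iff, QuotientGroup.ker_mk'] at h
    exact absurd h (not_le_of_gt hMN)
  haveI : (F.map (QuotientGroup.mk' M)).Normal := Subgroup.Normal.map ‹_› _ hsurj
  haveI : Group.IsNilpotent F := H51.fittingSubgroup_isNilpotent G
  haveI : Group.IsNilpotent (F.map (QuotientGroup.mk' M)) :=
    Group.nilpotent_of_surjective _ ((QuotientGroup.mk' M).subgroupMap_surjective F)
  have hFC := le_centralizer_of_nilpotent V (F.map (QuotientGroup.mk' M)) hVmin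
  haveI hFP : (F ⊔ (P : Subgroup G)).Normal := by
    have hPn : ((P.mapSurjective (QuotientGroup.mk'_surjective F) : Sylow p (G ⧸ F)) :
        Subgroup (G ⧸ F)).Normal := by
      have h := (Group.isNilpotent_of_finite_tfae (G := G ⧸ F)).out 0 3 rfl rfl
      exact h.1 hmeta p inferInstance _
    have hc := hPn.comap (QuotientGroup.mk' F)
    rwa [Sylow.coe_mapSurjective, Subgroup.comap_map_eq, QuotientGroup.ker_mk', sup_comm] at hc
  haveI : ((F ⊔ (P : Subgroup G)).map (QuotientGroup.mk' M)).Normal := hFP.map _ hsurj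
  refine le_centralizer_of_pGroup_action V hp hV0 hVmin _ ?_
  rintro _ ⟨x, hx, rfl⟩
  obtain ⟨y, hy, z, hz, rfl⟩ := Subgroup.mem_sup_of_normal_left.1 hx
  obtain ⟨j, hj⟩ := P.2 ⟨z, hz⟩
  refine ⟨j, ?_⟩
  have hker : ((y * z : G) : G ⧸ F) ^ p ^ j = 1 := by
    rw [QuotientGroup.mk_mul, (QuotientGroup.eq_one_iff y).2 hy, one_mul, ← QuotientGroup.mk_pow]
    have hj' : z ^ p ^ j = 1 := by simpa using congrArg Subtype.val hj
    rw [hj', QuotientGroup.mk_one]
  rw [← map_pow]
  exact hFC ⟨_, (QuotientGroup.eq_one_iff _).1 (by rw [QuotientGroup.mk_pow]; exact hker), rfl⟩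

/-- Two primes: one class size is divisible by a primitive degree. -/
theorem exists_class_of_two_primes [hF : (Cfsg.fittingSubgroup G).Normal]
    (h2 : (Nat.card G).primeFactors.card = 2)
    (hmeta : Group.IsNilpotent (G ⧸ Cfsg.fittingSubgroup G)) (χ : Cfsg.IrrCharacter G)
    (hprim : ¬ ∃ (H : Subgroup G), H ≠ ⊤ ∧ ∃ θ : ↥H → ℂ, Cfsg.IsCharacter ↥H θ ∧
      Cfsg.indFun H θ = (χ : G → ℂ)) :
    ∃ g : G, Cfsg.charDegree (χ : G → ℂ) ∣ (Subgroup.centralizer ({g} : Set G)).index := by
  classical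
  obtain ⟨p, q, hpq, hpqs⟩ := Finset.card_eq_two.1 h2
  haveI : Fact p.Prime := ⟨Nat.prime_of_mem_primeFactors (n := Nat.card G) (by rw [hpqs]; simp)⟩
  haveI : Fact q.Prime := ⟨Nat.prime_of_mem_primeFactors (n := Nat.card G) (by rw [hpqs]; simp)⟩
  set F := Cfsg.fittingSubgroup G with hFdef
  haveI : Group.IsNilpotent F := H51.fittingSubgroup_isNilpotent G
  haveI : Group.IsSolvable G :=
    Group.isSolvable_of_ker_le_range F.subtype (QuotientGroup.mk' F) (by simp)
  obtain ⟨P⟩ := (inferInstance : Nonempty (Sylow p G))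
  obtain ⟨Q⟩ := (inferInstance : Nonempty (Sylow q G))
  obtain ⟨Φp, hp1, ⟨gp, hgp⟩, hp3⟩ := exists_bound_top p χ hprim (F ⊔ (P : Subgroup G))
    (fun M N _ hN hMN hc hV => map_le_centralizer_chief hmeta p P M N hN hMN hc hV)
  obtain ⟨Φq, hq1, ⟨gq, hgq⟩, hq3⟩ := exists_bound_top q χ hprim (F ⊔ (Q : Subgroup G))
    (fun M N _ hN hMN hc hV => map_le_centralizer_chief hmeta q Q M N hN hMN hc hV)
  haveI hFQ : (F ⊔ (Q : Subgroup G)).Normal := by
    have hPn : ((Q.mapSurjective (QuotientGroup.mk'_surjective F) : Sylow q (G ⧸ F)) :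
        Subgroup (G ⧸ F)).Normal := by
      have h := (Group.isNilpotent_of_finite_tfae (G := G ⧸ F)).out 0 3 rfl rfl
      exact h.1 hmeta q inferInstance _
    have hc := hPn.comap (QuotientGroup.mk' F)
    rwa [Sylow.coe_mapSurjective, Subgroup.comap_map_eq, QuotientGroup.ker_mk', sup_comm] at hc
  have htop : (F ⊔ (P : Subgroup G)) ⊔ (F ⊔ (Q : Subgroup G)) = ⊤ := by
    rw [← Subgroup.index_eq_one]
    by_contra hne
    obtain ⟨r, hr, hrd⟩ := Nat.exists_prime_and_dvd hne
    have hrs : r ∈ (Nat.card G).primeFactors :=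
      Nat.mem_primeFactors.2 ⟨hr, hrd.trans (Subgroup.index_dvd_card _), Nat.card_pos.ne'⟩
    rw [hpqs, Finset.mem_insert, Finset.mem_singleton] at hrs
    rcases hrs with rfl | rfl
    · exact P.not_dvd_index (hrd.trans (Subgroup.index_dvd_of_le (le_sup_right.trans le_sup_left)))
    · exact Q.not_dvd_index (hrd.trans (Subgroup.index_dvd_of_le (le_sup_right.trans le_sup_right)))
  obtain ⟨x, hx, y, hy, hxy⟩ := Subgroup.mem_sup_of_normal_right.1
    (show gp⁻¹ * gq ∈ (F ⊔ (P : Subgroup G)) ⊔ (F ⊔ (Q : Subgroup G)) by rw [htop]; trivial)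
  refine ⟨gp * x, ?_⟩
  have h1 : (Cfsg.charDegree (χ : G → ℂ)).factorization p ≤
      ((Subgroup.centralizer ({gp * x} : Set G)).index).factorization p :=
    hgp.trans ((hp3 gp x hx).symm.le.trans (hp1 _))
  have h2' : (Cfsg.charDegree (χ : G → ℂ)).factorization q ≤
      ((Subgroup.centralizer ({gp * x} : Set G)).index).factorization q := by
    have h : gp * x = gq * y⁻¹ := by
      rw [eq_mul_inv_iff_mul_eq, mul_assoc, hxy, mul_inv_cancel_left]
    rw [h]
    exact hgq.trans ((hq3 gq y⁻¹ (inv_mem hy)).symm.le.trans (hq1 _))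
  have hdvd := H44.charDegree_dvd_card χ
  have hd0 : Cfsg.charDegree (χ : G → ℂ) ≠ 0 := fun h =>
    Nat.card_pos.ne' (Nat.eq_zero_of_zero_dvd (h ▸ hdvd))
  refine (Nat.factorization_le_iff_dvd hd0 Subgroup.index_ne_zero_of_finite).1 fun r => ?_
  by_cases hr : r ∈ (Nat.card G).primeFactors
  · rw [hpqs, Finset.mem_insert, Finset.mem_singleton] at hr
    rcases hr with rfl | rfl
    · exact h1
    · exact h2'
  · have h0 : (Nat.card G).factorization r = 0 := by
      rw [← Finsupp.notMem_support_iff, Nat.support_factorization]; exact hr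
    have := (Nat.factorization_le_iff_dvd hd0 Nat.card_pos.ne').2 hdvd r
    omega

end Cfsg.Agent.H52.AvgFix
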